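import Cfsg.Agent.H5.Ch.E7

/-!
Finite checks in the root system of type E7.
-/

set_option autoImplicit false
set_option linter.unusedSectionVars false
set_option linter.unusedSimpArgs false
set_option maxRecDepth 100000

namespace Cfsg.Agent.H5.Ch

/-- Points of the alcove. -/
def gen : List ℕ → ℕ → List (List ℤ)
  | [], _ => [[]]
  | w :: ws, n => (List.range (n / w + 1)).flatMap fun a => (gen ws (n - w * a)).map ((a : ℤ) :: ·)

/-- Histogram test. -/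
def hist1 (a : List ℤ) : Prop :=
  (rl.map fun l => 128 ^ (lin a (v7 l) % 13).toNat).sum =
    (rl.map fun l => 128 ^ (2 * lin a (v7 l) % 13).toNat).sum

instance (a : List ℤ) : Decidable (hist1 a) := by unfold hist1; infer_instance

theorem chk1 : ∀ a ∈ gen [2, 2, 3, 4, 3, 2, 1] 13, hist1 a → a = [0, 0, 0, 0, 0, 0, 0] ∨
    a = [0, 0, 0, 0, 0, 0, 13] ∨ a = [1, 0, 0, 1, 1, 1, 2] ∨ a = [1, 0, 1, 1, 0, 1, 0] := by
  decide +kernel

/-- Histogram test. -/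
def hist2 (a b : List ℤ) : Prop :=
  (rl.map fun l => 128 ^ (5 * (lin a (v7 l) % 13) + lin b (v7 l) % 5).toNat).sum =
    (rl.map fun l => 128 ^ (5 * (2 * lin a (v7 l) % 13) + 2 * lin b (v7 l) % 5).toNat).sum

instance (a b : List ℤ) : Decidable (hist2 a b) := by unfold hist2; infer_instance

/-- The residues modulo five. -/
def L5 : List ℤ := [0, 1, 2, 3, 4]

theorem chk2 : ∀ b0 ∈ L5, ∀ b1 ∈ L5, ∀ b2 ∈ L5, ∀ b3 ∈ L5, (b1 + b2 + 2 * b3) % 5 = 0 →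
    hist2 [1, 0, 0, 1, 1, 1, 2] [b0, b1, b2, b3, 0, 0, 0] →
      [b0, b1, b2, b3] = [0, 0, 0, 0] := by
  decide +kernel

theorem chk3 : ∀ b1 ∈ L5, ∀ b3 ∈ L5, ∀ b4 ∈ L5, ∀ b5 ∈ L5, ∀ b6 ∈ L5,
    (b1 + 2 * b3 + 3 * b5 + 4 * b6) % 5 = 0 → (b4 + 2 * b5 + b6) % 5 = 0 →
    hist2 [1, 0, 1, 1, 0, 1, 0] [0, b1, 0, b3, b4, b5, b6] →
      [b1, b3, b4, b5, b6] = [0, 0, 0, 0, 0] := by
  decide +kernel

end Cfsg.Agent.H5.Ch
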