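import Cfsg.Agent.H5.Ch.Main
import Cfsg.Prelude.Def_Classical

/-!
Elements of order 65 in some classical groups.
-/

set_option autoImplicit false
set_option linter.unusedSectionVars false
set_option linter.unusedSimpArgs false
set_option maxRecDepth 100000

namespace Cfsg.Agent.H5.Ch

open Matrix Cfsg.Lie
open scoped MatrixGroups

/-- The field with eight elements. -/
structure K8 where
  /-- the code -/
  v : Fin 8
deriving DecidableEq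

/-- the element with a given code -/
def k8 (n : ℕ) : K8 := ⟨⟨n.mod 8, Nat.mod_lt _ (by decide)⟩⟩

instance instFintypeK8 : Fintype K8 :=
  Fintype.ofEquiv _ (⟨K8.mk, K8.v, fun _ => rfl, fun _ => rfl⟩ : Fin 8 ≃ K8)

instance instZeroK8 : Zero K8 := ⟨k8 0⟩
instance instOneK8 : One K8 := ⟨k8 1⟩
instance instAddK8 : Add K8 := ⟨fun x y => k8 (x.v.1.xor y.v.1)⟩
instance instMulK8 : Mul K8 := ⟨fun x y => k8 (Nat.shiftRight
  2821848294356612419217921029917578219971947684264937521152 (3 * (8 * x.v.1 + y.v.1)))⟩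
instance instNegK8 : Neg K8 := ⟨fun x => x⟩
instance instInvK8 : Inv K8 := ⟨fun x => x * x * x * x * x * x⟩

instance instFieldK8 : Field K8 := Field.ofMinimalAxioms K8 (by decide +kernel) (by decide +kernel)
  (by decide +kernel) (by decide +kernel) (by decide +kernel) (by decide +kernel) (by decide +kernel)
  (by decide +kernel) (by decide +kernel) (by decide +kernel)

instance instFactK8 : Fact (∀ r : K8, r ^ 2 ≠ 1 + 1 * r) := ⟨by decide +kernel⟩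

/-- The field with 64 elements. -/
abbrev K64 := QuadraticAlgebra K8 1 1

instance instFintypeK64 : Fintype K64 := Fintype.ofEquiv _ (QuadraticAlgebra.equivProd 1 1).symm

/-- the element with a given code -/
def k64 (n : ℕ) : K64 := ⟨k8 n, k8 (n / 8)⟩

theorem card_K8 : Fintype.card K8 = 8 := by decide +kernel

theorem card_K64 : Fintype.card K64 = 64 := by decide +kernel

/-- conjugation -/
def cj (z : K64) : K64 := ⟨z.re + z.im, z.im⟩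

theorem pow_eight : ∀ z : K64, z ^ 8 = cj z := by decide +kernel

/-- matrices from tables -/
def mat {ι K : Type} (e : ι → ℕ) (k : ℕ → K) (L : List (List (List ℕ))) (s : ℕ) : Matrix ι ι K :=
  of fun i j => k (((L.getD s []).getD (e i) []).getD (e j) 0)

section
variable {ι K : Type} [Fintype ι] [DecidableEq ι] [Field K]

/-- certificate for an element of order 65 -/
def good (M : ℕ → Matrix ι ι K) : Prop := M 0 * M 0 = M 1 ∧ M 1 * M 1 = M 2 ∧ M 2 * M 0 = M 3 ∧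
  M 2 * M 2 = M 4 ∧ M 4 * M 3 = M 5 ∧ M 5 * M 5 = M 6 ∧ M 6 * M 6 = M 7 ∧ M 7 * M 5 = 1 ∧
  M 3 * M 8 ≠ M 8 * M 3 ∧ M 5 * M 8 ≠ M 8 * M 5 ∧ M 8 * M 8 = 1

instance instDecGood [DecidableEq K] (M : ℕ → Matrix ι ι K) : Decidable (good M) := by
  unfold good; infer_instance

theorem good.out {M : ℕ → Matrix ι ι K} (h : good M) : M 0 ^ 65 = 1 ∧
    M 0 ^ 5 * M 8 ≠ M 8 * M 0 ^ 5 ∧ M 0 ^ 13 * M 8 ≠ M 8 * M 0 ^ 13 := by
  obtain ⟨h1, h2, h3, h4, h5, h6, h7, h8, h9, h10, -⟩ := h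
  have e3 : M 0 ^ 5 = M 3 := by rw [← h3, ← h2, ← h1]; noncomm_ring
  have e5 : M 0 ^ 13 = M 5 := by rw [← h5, ← h4, ← h3, ← h2, ← h1]; noncomm_ring
  refine ⟨?_, by rwa [e3], by rwa [e5]⟩
  rw [show 65 = 13 * 5 from rfl, pow_mul, e5, ← h8, ← h7, ← h6]
  noncomm_ring

theorem good.det {M : ℕ → Matrix ι ι K} (h : good M) (h2 : ∀ x : K, x * x = 1 → x = 1)
    (h63 : ∀ x : K, x ≠ 0 → x ^ 63 = 1) : (M 0).det = 1 ∧ (M 8).det = 1 := by
  have h1 := congrArg Matrix.det h.out.1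
  rw [det_pow, det_one] at h1
  refine ⟨h2 _ ?_, h2 _ (by rw [← det_mul, h.2.2.2.2.2.2.2.2.2.2, det_one])⟩
  have := h63 (M 0).det fun e => by simp [e] at h1
  rw [← h1, show 65 = 63 + 2 from rfl, pow_add, this, one_mul, sq]

theorem noEmb {F : Type*} [Field F] (φ : K →+* F) {M : ℕ → Matrix ι ι K} (h : good M)
    {G : Type*} [Group G] (ρ : G →* Matrix ι ι F) (hρ : Function.Injective ρ) (a b : G)
    (ha : ρ a = (M 0).map φ) (hb : ρ b = (M 8).map φ) (H : Subgroup (chevE7.group (ZMod 2))) :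
    IsEmpty (H ≃* G ⧸ Subgroup.center G) := by
  refine ⟨fun e => ?_⟩
  obtain ⟨h1, h2, h3⟩ := h.out
  have h4 : a ^ 65 = 1 := hρ (by
    rw [map_pow, ha, ← RingHom.mapMatrix_apply, ← map_pow, h1, map_one, map_one])
  let ψ : G →* chevE7.group (ZMod 2) := H.subtype.comp (e.symm.toMonoidHom.comp (QuotientGroup.mk' _))
  have key : ∀ k, ψ a ^ k = 1 → M 0 ^ k * M 8 = M 8 * M 0 ^ k := fun k hk => by
    rw [← map_pow] at hk
    have h5 : a ^ k ∈ Subgroup.center G := by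
      rw [← QuotientGroup.eq_one_iff]
      exact e.symm.injective ((Subtype.ext hk).trans (map_one _).symm)
    have h6 := congrArg ρ (Subgroup.mem_center_iff.1 h5 b)
    rw [map_mul, map_mul, map_pow, ha, hb, ← RingHom.mapMatrix_apply, ← RingHom.mapMatrix_apply,
      ← map_pow, ← map_mul, ← map_mul] at h6
    exact (Matrix.map_injective φ.injective h6).symm
  exact (no65 (ψ a) (by rw [← map_pow, h4, map_one])).elim (fun h => h2 (key 5 h))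
    fun h => h3 (key 13 h)

theorem noSL {F : Type*} [Field F] (φ : K →+* F) {M : ℕ → Matrix ι ι K} (h : good M)
    (hd : (M 0).det = 1 ∧ (M 8).det = 1) (H : Subgroup (chevE7.group (ZMod 2))) :
    IsEmpty (H ≃* ProjectiveSpecialLinearGroup ι F) :=
  noEmb φ h SpecialLinearGroup.coeMonoidHom Subtype.val_injective
    (SpecialLinearGroup.map φ ⟨_, hd.1⟩) (SpecialLinearGroup.map φ ⟨_, hd.2⟩) rfl rfl H

theorem noSp {F : Type*} [Field F] (φ : K →+* F) {m : ℕ}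
    {M : ℕ → Matrix (Fin m ⊕ Fin m) (Fin m ⊕ Fin m) K} (h : good M)
    (hd : M 0 * J _ K * (M 0)ᵀ = J _ K ∧ M 8 * J _ K * (M 8)ᵀ = J _ K)
    (H : Subgroup (chevE7.group (ZMod 2))) : IsEmpty (H ≃* PSp m F) :=
  noEmb φ h (symplecticGroup _ F).subtype Subtype.val_injective
    ⟨_, SymplecticGroup.map_mem hd.1 φ⟩ ⟨_, SymplecticGroup.map_mem hd.2 φ⟩ rfl rfl H

end

theorem mem_SU {F : Type*} [Field F] [CharP F 2] (φ : K64 →+* F) (A : SL(4, K64))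
    (h : A.1ᵀ * A.1.map cj = 1) : SpecialLinearGroup.map φ A ∈ SU 4 F 8 := fun u v => by
  have h1 : (A.1.map φ)ᵀ * (A.1.map φ).map (iterateFrobenius F 2 3) = 1 := by
    have := congrArg φ.mapMatrix h
    rw [map_mul, map_one] at this
    rw [← this]
    congr 1
    ext i j
    simp [iterateFrobenius_def, ← pow_eight]
  change (A.1.map φ *ᵥ u) ⬝ᵥ (iterateFrobenius F 2 3 ∘ (A.1.map φ *ᵥ v)) =
    u ⬝ᵥ (iterateFrobenius F 2 3 ∘ v)
  have h2 : iterateFrobenius F 2 3 ∘ (A.1.map φ *ᵥ v) = (A.1.map φ).map (iterateFrobenius F 2 3) *ᵥ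
    (iterateFrobenius F 2 3 ∘ v) := funext fun i => RingHom.map_mulVec _ _ _ i
  rw [h2, dotProduct_mulVec, vecMul_mulVec, h1, vecMul_one]

theorem h2_K8 : ∀ x : K8, x * x = 1 → x = 1 := by decide +kernel

theorem h2_K64 : ∀ x : K64, x * x = 1 → x = 1 := by decide +kernel

theorem h63_K8 (x : K8) (h : x ≠ 0) : x ^ 63 = 1 := by
  have := FiniteField.pow_card_sub_one_eq_one x h
  rw [card_K8] at this
  rw [show 63 = (8 - 1) * 9 from rfl, pow_mul, this, one_pow]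

theorem h63_K64 (x : K64) (h : x ≠ 0) : x ^ 63 = 1 := by
  simpa [card_K64] using FiniteField.pow_card_sub_one_eq_one x h

/-- table -/
def tL2 : List (List (List ℕ)) := [
  [[0, 1], [1, 16]],
  [[1, 16], [16, 37]],
  [[37, 3], [3, 21]],
  [[3, 21], [21, 47]],
  [[52, 8], [8, 38]],
  [[53, 40], [40, 60]],
  [[42, 5], [5, 34]],
  [[60, 40], [40, 53]],
  [[1, 1], [0, 1]]]

/-- table -/
def tS4 : List (List (List ℕ)) := [
  [[4, 0, 0, 6], [5, 4, 6, 4], [3, 3, 0, 4], [2, 3, 7, 3]],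
  [[1, 1, 4, 4], [2, 0, 4, 7], [0, 0, 0, 1], [3, 0, 3, 4]],
  [[4, 1, 7, 1], [0, 2, 1, 6], [3, 0, 3, 4], [4, 3, 0, 2]],
  [[3, 5, 1, 3], [5, 1, 3, 6], [1, 2, 1, 1], [6, 1, 4, 4]],
  [[0, 5, 2, 1], [6, 5, 1, 4], [4, 4, 7, 7], [5, 4, 2, 1]],
  [[3, 0, 2, 5], [2, 0, 5, 5], [6, 4, 5, 4], [2, 6, 4, 7]],
  [[3, 0, 5, 1], [4, 1, 1, 5], [2, 7, 4, 2], [1, 2, 4, 7]],
  [[5, 4, 2, 5], [4, 7, 5, 5], [6, 2, 3, 2], [4, 6, 0, 0]],
  [[1, 0, 1, 0], [0, 1, 0, 0], [0, 0, 1, 0], [0, 0, 0, 1]]]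

/-- table -/
def tS6 : List (List (List ℕ)) := [
  [[4, 0, 0, 0, 6, 0], [5, 4, 0, 6, 4, 0], [0, 0, 1, 0, 0, 0], [3, 3, 0, 0, 4, 0], [2, 3, 0, 7, 3, 0], [0, 0, 0, 0, 0, 1]],
  [[1, 1, 0, 4, 4, 0], [2, 0, 0, 4, 7, 0], [0, 0, 1, 0, 0, 0], [0, 0, 0, 0, 1, 0], [3, 0, 0, 3, 4, 0], [0, 0, 0, 0, 0, 1]],
  [[4, 1, 0, 7, 1, 0], [0, 2, 0, 1, 6, 0], [0, 0, 1, 0, 0, 0], [3, 0, 0, 3, 4, 0], [4, 3, 0, 0, 2, 0], [0, 0, 0, 0, 0, 1]],
  [[3, 5, 0, 1, 3, 0], [5, 1, 0, 3, 6, 0], [0, 0, 1, 0, 0, 0], [1, 2, 0, 1, 1, 0], [6, 1, 0, 4, 4, 0], [0, 0, 0, 0, 0, 1]],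
  [[0, 5, 0, 2, 1, 0], [6, 5, 0, 1, 4, 0], [0, 0, 1, 0, 0, 0], [4, 4, 0, 7, 7, 0], [5, 4, 0, 2, 1, 0], [0, 0, 0, 0, 0, 1]],
  [[3, 0, 0, 2, 5, 0], [2, 0, 0, 5, 5, 0], [0, 0, 1, 0, 0, 0], [6, 4, 0, 5, 4, 0], [2, 6, 0, 4, 7, 0], [0, 0, 0, 0, 0, 1]],
  [[3, 0, 0, 5, 1, 0], [4, 1, 0, 1, 5, 0], [0, 0, 1, 0, 0, 0], [2, 7, 0, 4, 2, 0], [1, 2, 0, 4, 7, 0], [0, 0, 0, 0, 0, 1]],
  [[5, 4, 0, 2, 5, 0], [4, 7, 0, 5, 5, 0], [0, 0, 1, 0, 0, 0], [6, 2, 0, 3, 2, 0], [4, 6, 0, 0, 0, 0], [0, 0, 0, 0, 0, 1]],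
  [[1, 0, 0, 1, 0, 0], [0, 1, 0, 0, 0, 0], [0, 0, 1, 0, 0, 0], [0, 0, 0, 1, 0, 0], [0, 0, 0, 0, 1, 0], [0, 0, 0, 0, 0, 1]]]

/-- table -/
def tU4 : List (List (List ℕ)) := [
  [[51, 15, 26, 49], [12, 51, 25, 12], [5, 7, 33, 32], [56, 20, 21, 34]],
  [[58, 22, 20, 41], [18, 60, 4, 11], [57, 40, 10, 28], [54, 33, 20, 9]],
  [[32, 56, 7, 11], [60, 33, 55, 63], [57, 11, 60, 5], [43, 4, 41, 58]],
  [[11, 30, 12, 56], [30, 15, 38, 33], [51, 24, 18, 51], [30, 25, 25, 17]],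
  [[42, 37, 43, 32], [35, 41, 39, 6], [50, 62, 59, 50], [43, 31, 5, 59]],
  [[14, 26, 11, 16], [30, 13, 7, 11], [7, 12, 54, 7], [38, 4, 17, 52]],
  [[0, 0, 14, 18], [7, 2, 49, 41], [2, 60, 60, 27], [36, 34, 14, 63]],
  [[15, 29, 7, 34], [25, 12, 13, 4], [10, 7, 48, 19], [18, 10, 7, 50]],
  [[0, 1, 0, 0], [1, 0, 0, 0], [0, 0, 1, 0], [0, 0, 0, 1]]]

section
variable {F : Type*} [Field F] (H : Subgroup (chevE7.group (ZMod 2)))

theorem noL2 (φ : K64 →+* F) : IsEmpty (H ≃* ProjectiveSpecialLinearGroup (Fin 2) F) :=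
  have h : good (mat Fin.val k64 tL2) := by decide +kernel
  noSL φ h (h.det h2_K64 h63_K64) H

theorem noL4 (φ : K8 →+* F) : IsEmpty (H ≃* ProjectiveSpecialLinearGroup (Fin 4) F) :=
  have h : good (mat Fin.val k8 tS4) := by decide +kernel
  noSL φ h (h.det h2_K8 h63_K8) H

theorem noS4 (φ : K8 →+* F) : IsEmpty (H ≃* PSp 2 F) :=
  noSp φ (M := mat (Sum.elim Fin.val (·.1 + 2)) k8 tS4) (by decide +kernel) (by decide +kernel) H

theorem noS6 (φ : K8 →+* F) : IsEmpty (H ≃* PSp 3 F) :=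
  noSp φ (M := mat (Sum.elim Fin.val (·.1 + 3)) k8 tS6) (by decide +kernel) (by decide +kernel) H

theorem noU4 (φ : K64 →+* F) : IsEmpty (H ≃* PSU 4 F 8) :=
  have h : good (mat Fin.val k64 tU4) := by decide +kernel
  have hd := h.det h2_K64 h63_K64
  have h1 : ∀ s ∈ [0, 8], (mat Fin.val k64 tU4 s : Matrix (Fin 4) (Fin 4) K64)ᵀ *
    (mat Fin.val k64 tU4 s : Matrix (Fin 4) (Fin 4) K64).map cj = 1 := by decide +kernel
  haveI : CharP F 2 := CharTwo.of_one_ne_zero_of_two_eq_zero one_ne_zero (by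
    rw [← map_ofNat φ, show (2 : K64) = 0 by decide +kernel, map_zero])
  noEmb φ h (SpecialLinearGroup.coeMonoidHom.comp (SU 4 F 8).subtype)
    (Subtype.val_injective.comp Subtype.val_injective)
    ⟨_, mem_SU φ ⟨_, hd.1⟩ (h1 0 (by simp))⟩ ⟨_, mem_SU φ ⟨_, hd.2⟩ (h1 8 (by simp))⟩ rfl rfl H

end

end Cfsg.Agent.H5.Ch
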