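import Cfsg.Agent.H5.Ch.Fix
import Cfsg.Agent.H5.Ch.E7x
import Cfsg.Agent.H5.Ch.E7c

/-!
The group E7(2) has no element of order 65.
-/

set_option autoImplicit false
set_option linter.unusedSectionVars false
set_option linter.unusedSimpArgs false
set_option maxRecDepth 100000

namespace Cfsg.Agent.H5.Ch

open Matrix Cfsg.Lie SLD
open scoped MatrixGroups

theorem lin_eq (a : (Fin 7 → ℤ) →ₗ[ℤ] ℤ) (v : Fin 7 → ℤ) :
    a v = lin [a (al 0), a (al 1), a (al 2), a (al 3), a (al 4), a (al 5), a (al 6)] v := by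
  conv_lhs => rw [eq_sum_al v]
  simp only [map_smul, smul_eq_mul, Fin.sum_univ_seven, map_add]
  simp [lin, mul_comm]

/-- An invariant of roots. -/
def qf (a : List ℤ) (v : Fin 7 → ℤ) : ℤ :=
  (rl.map fun l => if lin a (v7 l) % 13 = 1 then Bf v (v7 l) ^ 2 else 0).sum

theorem noStab (a b1 b2 b3 : List ℤ)
    (h1 : ∀ b ∈ [b1, b2, b3], Bf (v7 b) (v7 b) = 2 ∧ (rl.map fun l =>
      if (lin a (v7 l) % 13, qf a (v7 l)) = (lin a (v7 b) % 13, qf a (v7 b)) then 1 else 0).sum < 5)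
    (h2 : ∀ i, (rl.map fun l =>
      if (lin a (v7 l) % 13, Bf (v7 l) (v7 b1), Bf (v7 l) (v7 b2), Bf (v7 l) (v7 b3)) =
        (lin a (al i) % 13, Bf (al i) (v7 b1), Bf (al i) (v7 b2), Bf (al i) (v7 b3))
        then 1 else 0).sum < 5)
    (w : (Fin 7 → ℤ) ≃ₗ[ℤ] (Fin 7 → ℤ)) (hw : ∀ u v, E7.B (w u) (w v) = E7.B u v) (h5 : w ^ 5 = 1)
    (ha : ∀ r, E7.B r r = 2 → lin a (w r) % 13 = lin a r % 13) : w = 1 := by
  have h3 : ∀ b ∈ [b1, b2, b3], w (v7 b) = v7 b := fun b hb => by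
    refine fix_vec hw h5 (fun v => (lin a v % 13, qf a v)) (fun r hr => ?_)
      ((E7_B _ _).trans (h1 b hb).1) ((sum_rt fun v => if (lin a v % 13, qf a v) =
        (lin a (v7 b) % 13, qf a (v7 b)) then 1 else 0).trans_lt (h1 b hb).2)
    obtain ⟨π, hπ⟩ := exists_perm hw
    simp only [ha r hr, qf, Prod.mk.injEq, true_and]
    rw [← sum_rt fun v => if lin a v % 13 = 1 then Bf (w r) v ^ 2 else 0,
      ← sum_rt fun v => if lin a v % 13 = 1 then Bf r v ^ 2 else 0, ← Equiv.sum_comp π]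
    refine Finset.sum_congr rfl fun s _ => ?_
    rw [← E7_rt, ← E7_rt, hπ, ha _ (E7.norm s), ← E7_B, ← E7_B, hw]
  refine LinearEquiv.toLinearMap_injective ((Pi.basisFun ℤ _).ext fun i => ?_)
  rw [Pi.basisFun_apply]
  refine fix_vec hw h5 (fun v => (lin a v % 13, Bf v (v7 b1), Bf v (v7 b2), Bf v (v7 b3)))
    (fun r hr => ?_) (E7.B_al_self i) ((sum_rt fun v =>
      if (lin a v % 13, Bf v (v7 b1), Bf v (v7 b2), Bf v (v7 b3)) =
        (lin a (al i) % 13, Bf (al i) (v7 b1), Bf (al i) (v7 b2), Bf (al i) (v7 b3))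
        then 1 else 0).trans_lt (h2 i))
  simp only [ha r hr, ← E7_B]
  rw [← hw r, ← hw r, ← hw r, h3 b1 (by simp), h3 b2 (by simp), h3 b3 (by simp)]

section
variable {a : List ℤ} {b : (Fin 7 → ℤ) →ₗ[ℤ] ℤ} {π : Equiv.Perm (Fin 126)}
  (ha : ∀ r, lin a (rt7 (π r)) % 13 = 2 * lin a (rt7 r) % 13)
include ha

theorem hist1_of : hist1 a := by
  rw [hist1, ← sum_rt fun v => 128 ^ (lin a v % 13).toNat,
    ← sum_rt fun v => 128 ^ (2 * lin a v % 13).toNat, ← Equiv.sum_comp π]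
  simp only [ha]

variable (hb : ∀ r, b (rt7 (π r)) % 5 = 2 * b (rt7 r) % 5)
include hb

theorem hist2_of :
    hist2 a [b (al 0), b (al 1), b (al 2), b (al 3), b (al 4), b (al 5), b (al 6)] := by
  rw [hist2]
  simp only [← lin_eq]
  rw [← sum_rt fun v => 128 ^ (5 * (lin a v % 13) + b v % 5).toNat,
    ← sum_rt fun v => 128 ^ (5 * (2 * lin a v % 13) + 2 * b v % 5).toNat, ← Equiv.sum_comp π]
  simp only [ha, hb]

theorem lin_cond (c V : List ℤ) (h : ∀ i, (rl.map fun l => (c.getD (lin a (v7 l) % 13).toNat 0 -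
      2 * c.getD (2 * lin a (v7 l) % 13).toNat 0) * v7 l i).sum = v7 V i) :
    lin [b (al 0), b (al 1), b (al 2), b (al 3), b (al 4), b (al 5), b (al 6)] (v7 V) % 5 = 0 := by
  have h1 : v7 V = ∑ r, (c.getD (lin a (rt7 r) % 13).toNat 0 -
      2 * c.getD (2 * lin a (rt7 r) % 13).toNat 0) • rt7 r := by
    ext i
    rw [← h, Finset.sum_apply]
    exact (sum_rt fun v => (c.getD (lin a v % 13).toNat 0 -
      2 * c.getD (2 * lin a v % 13).toNat 0) * v i).symm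
  rw [← lin_eq, h1, map_sum]
  simp only [map_smul, smul_eq_mul, sub_mul]
  rw [Finset.sum_sub_distrib, ← Equiv.sum_comp π, ← Finset.sum_sub_distrib]
  refine Int.emod_eq_zero_of_dvd (Finset.dvd_sum fun r _ => ?_)
  rw [ha, mul_comm 2 (c.getD _ _), mul_assoc, ← mul_sub]
  exact Dvd.dvd.mul_left (Int.ModEq.dvd (hb r).symm) _

theorem final (h : a = [1, 0, 0, 1, 1, 1, 2] ∨ a = [1, 0, 1, 1, 0, 1, 0])
    (hb' : ∀ i, 0 ≤ b (al i) ∧ b (al i) < 5) (v : Fin 7 → ℤ) : b v = 0 := by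
  have h0 : ∀ i, b (al i) ∈ L5 := fun i => by
    have := hb' i
    simp only [L5, List.mem_cons, List.not_mem_nil]
    omega
  have k0 := hb' 0
  have k2 := hb' 2
  have k4 := hb' 4
  have k5 := hb' 5
  have k6 := hb' 6
  rw [lin_eq]
  rcases h with rfl | rfl
  · have e1 := lin_cond ha hb [0, 4, 0, 3, 0, 4] [0, -9, -9, -18, -15, 5, -25] (by decide +kernel)
    have e2 := lin_cond ha hb [0, 1, 4, 0, 0, 4] [0, 10, 10, 20, 21, 5, -10] (by decide +kernel)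
    have e3 := lin_cond ha hb [0, 3, 2, 0, 0, 1] [0, -10, -10, -20, -5, -4, -5] (by decide +kernel)
    have e4 := lin_cond ha hb [0, 2, 3, 1, 0, 0] [0, 5, 5, 10, 20, 10, 6] (by decide +kernel)
    simp [lin, v7] at e1 e2 e3 e4
    obtain ⟨e5, e6, e7, e8⟩ : b (al 4) = 0 ∧ b (al 5) = 0 ∧ b (al 6) = 0 ∧
      (b (al 1) + b (al 2) + 2 * b (al 3)) % 5 = 0 := ⟨by clear e1 e3 e4; omega,
      by clear e1 e2 e4; omega, by clear e1 e2 e3; omega, by clear e2 e3 e4; omega⟩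
    have h1 := hist2_of ha hb
    rw [e5, e6, e7] at h1 ⊢
    have := chk2 _ (h0 0) _ (h0 1) _ (h0 2) _ (h0 3) e8 h1
    simp only [List.cons.injEq, and_true] at this
    simp [lin, this]
  · have e1 := lin_cond ha hb [0, 3, 2, 0, 0, 1] [6, 0, 10, 0, 5, 10, 5] (by decide +kernel)
    have e2 := lin_cond ha hb [0, 3, 4, 0, 0, 1] [0, -4, 10, -8, -5, -2, -1] (by decide +kernel)
    have e3 := lin_cond ha hb [0, 1, 4, 0, 0, 4] [25, 30, 51, 60, 40, 20, 10] (by decide +kernel)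
    have e4 := lin_cond ha hb [0, 1, 1, 3, 0, 3] [40, 35, 50, 70, 46, 22, 11] (by decide +kernel)
    simp [lin, v7] at e1 e2 e3 e4
    obtain ⟨e5, e6, e7, e8⟩ : b (al 0) = 0 ∧ b (al 2) = 0 ∧
      (b (al 1) + 2 * b (al 3) + 3 * b (al 5) + 4 * b (al 6)) % 5 = 0 ∧
      (b (al 4) + 2 * b (al 5) + b (al 6)) % 5 = 0 :=
      ⟨by clear e2 e3 e4; omega, by clear e1 e2 e4; omega, by clear e1 e3 e4; omega,
        by clear e1 e2 e3; omega⟩
    have h1 := hist2_of ha hb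
    rw [e5, e6] at h1 ⊢
    have := chk3 _ (h0 1) _ (h0 3) _ (h0 4) _ (h0 5) _ (h0 6) e7 e8 h1
    simp only [List.cons.injEq, and_true] at this
    simp [lin, this]

end

theorem zpow_eq_iff {F : Type*} [Field F] {ζ : F} {p : ℕ} (hp : p ≠ 0) (h : IsPrimitiveRoot ζ p)
    {x y : ℤ} (e : ζ ^ x = ζ ^ y) : x % p = y % p := by
  have h0 := h.ne_zero hp
  rw [← div_eq_one_iff_eq (zpow_ne_zero _ h0), ← zpow_sub₀ h0, h.zpow_eq_one_iff_dvd] at e
  exact (Int.modEq_iff_dvd.2 e).symm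

theorem main {F : Type*} [Field F] [CharP F 2] [Finite F] {t5 t13 : F}
    (h5 : IsPrimitiveRoot t5 (5 ^ 3)) (h13 : IsPrimitiveRoot t13 (13 ^ 2))
    {s f : GL (Fin 7 ⊕ Fin 126) F} (hs : s ∈ E7.G F) (hf : f ∈ E7.G F)
    (hs1 : GeneralLinearGroup.map (frobenius F 2) s = s)
    (hf1 : GeneralLinearGroup.map (frobenius F 2) f = f)
    (hs2 : s ^ 13 = 1) (hf2 : f ^ 5 = 1) (hc : f * s = s * f) : s = 1 ∨ f = 1 := by
  have hv : ∀ i, E7.B (al i) (v7 [34, 49, 66, 96, 75, 52, 27]) = 2 := by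
    simp only [E7_B]; decide +kernel
  have hb : ∀ r, -17 ≤ ht (E7.rt r) ∧ ht (E7.rt r) ≤ 17 :=
    all_rt (P := fun v => -17 ≤ ht v ∧ ht v ≤ 17) (by simp only [ht_apply]; decide +kernel)
  obtain ⟨r5, hr5, hr5'⟩ := exists_reg _ hv hb (by norm_num) h5 (by intros; omega)
  obtain ⟨r13, hr13, hr13'⟩ := exists_reg _ hv hb (by norm_num) h13 (by intros; omega)
  have hξ : IsPrimitiveRoot (t5 ^ 25) 5 := h5.pow (by norm_num) (by norm_num)
  have hζ : IsPrimitiveRoot (t13 ^ 13) 13 := h13.pow (by norm_num) (by norm_num)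
  generalize t5 ^ 25 = ξ at hξ
  generalize t13 ^ 13 = ζ at hζ
  have p13 : Nat.Prime 13 := by norm_num
  obtain ⟨z, hz, h1, -⟩ := conj_into_Bo (j := 1) p13 hr13 hr13' (E7.G F).one_mem IsN.one hs hs2
    (by simp) fun w _ hw _ => eq_one_of_pow_prime p13 (by norm_num) w hw
  have hcj : ∀ (y g : GL (Fin 7 ⊕ Fin 126) F) (k : ℕ), g ^ k = 1 → (y⁻¹ * g * y) ^ k = 1 :=
    fun y g k e => by simpa [e] using conj_pow (a := y⁻¹) (b := g) (i := k)
  obtain ⟨u, hu, h2, χ, h3⟩ := conj_into_H (j := 1) p13 hr13 hr13' h1 (hcj _ _ _ hs2)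
  obtain ⟨a0, -, h4⟩ := h3.exists_lin hζ fun i => by
    rw [← sp_val, ← h3.d_eq, ← d_pow (H_le_Bo ⟨h2, χ, h3⟩), hcj _ _ _ (hcj _ _ _ hs2), d_one]
  obtain ⟨m, hm, a, h6, h7, h8⟩ := alcove (R := E7) (θ := ⟨v7 [2, 2, 3, 4, 3, 2, 1], by rw [E7_B]; rfl⟩)
    (by rw [ht_apply]; decide +kernel) (by
      have : ∀ β : Fin 7 → ℤ, (∀ i, (rl.map fun l => Bf (v7 l) β * v7 l i).sum = 36 * β i) →
          ∑ r, E7.B (E7.rt r) β • E7.rt r = (36 : ℤ) • β := fun β h => funext fun i => by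
        rw [Finset.sum_apply, Pi.smul_apply, smul_eq_mul, ← h]
        simp only [E7_B]
        exact sum_rt fun v => Bf v β * v i
      rintro β (rfl | ⟨i, rfl⟩)
      · exact this _ (by decide +kernel)
      · exact this _ (by rw [sp_val]; revert i; decide +kernel))
    (hζ.ne_zero (by norm_num)) hζ.pow_eq_one a0 (h3.congr rfl h4)
  obtain ⟨y, hy, e⟩ : ∃ y ∈ E7.G F, m⁻¹ * (u⁻¹ * (z⁻¹ * s * z) * u) * m = y⁻¹ * s * y :=
    ⟨z * u * m, (E7.G F).mul_mem ((E7.G F).mul_mem hz (U_le_G hu)) hm, by group⟩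
  rw [e] at h6
  have hG : ∀ g ∈ E7.G F, y⁻¹ * g * y ∈ E7.G F := fun g hg =>
    (E7.G F).mul_mem ((E7.G F).mul_mem ((E7.G F).inv_mem hy) hg) hy
  have h9 : ∀ v, a v = lin _ v := lin_eq a
  have h10 : [a (al 0), a (al 1), a (al 2), a (al 3), a (al 4), a (al 5), a (al 6)] ∈
      gen [2, 2, 3, 4, 3, 2, 1] 13 := by
    rw [h9] at h8
    simp [lin, v7] at h8
    simp only [gen, List.mem_flatMap, List.mem_map, List.mem_range, List.mem_singleton]
    have k := fun i => Int.toNat_of_nonneg (h7 i)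
    have k0 := k 0
    have k1 := k 1
    have k2 := k 2
    have k3 := k 3
    have k4 := k 4
    have k5 := k 5
    have k6 := k 6
    exact ⟨(a (al 0)).toNat, by omega, _, ⟨(a (al 1)).toNat, by omega, _, ⟨(a (al 2)).toNat, by omega,
      _, ⟨(a (al 3)).toNat, by omega, _, ⟨(a (al 4)).toNat, by omega, _, ⟨(a (al 5)).toNat, by omega,
      _, ⟨(a (al 6)).toNat, by omega, _, rfl, rfl⟩, rfl⟩, rfl⟩, rfl⟩, rfl⟩, rfl⟩, by simp only [k]⟩
  generalize [a (al 0), a (al 1), a (al 2), a (al 3), a (al 4), a (al 5), a (al 6)] = A at h9 h10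
  have key : ∀ z ∈ E7.G F, z⁻¹ * s * z ∈ E7.Bo F → (∀ r, E7.d (z⁻¹ * s * z) r = ζ ^ a r.1) →
      ∃ π : Equiv.Perm (Fin 126), (∀ r, lin A (rt7 (π r)) % 13 = 2 * lin A (rt7 r) % 13) ∧
      (z⁻¹ * f * z ∈ E7.Bo F → ∀ r, E7.d (z⁻¹ * f * z) ⟨_, E7.norm (π r)⟩ =
        E7.d (z⁻¹ * f * z) ⟨_, E7.norm r⟩ ^ 2) := fun z hz k1 k2 => by
    obtain ⟨π, hπ⟩ := frob (frobenius F 2) hz
    refine ⟨π, fun r => ?_, hπ f hf1⟩
    have := hπ s hs1 k1 r
    rw [k2, k2, frobenius_def, ← zpow_natCast, ← _root_.zpow_mul, h9, h9, mul_comm] at this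
    exact zpow_eq_iff (by norm_num) hζ this
  obtain ⟨π, hπ, -⟩ := key y hy (H_le_Bo ⟨hG s hs, _, h6⟩) h6.d_eq
  have h11 := chk1 A h10 (hist1_of hπ)
  rw [← or_assoc] at h11
  rcases h11 with h11 | h11
  · refine Or.inl ?_
    have : y⁻¹ * s * y = 1 := h6.eq_of IsN.one fun v _ => by
      rw [hζ.zpow_eq_one_iff_dvd, h9]
      rcases h11 with rfl | rfl <;> simp [lin]
    calc s = y * (y⁻¹ * s * y) * y⁻¹ := by group
      _ = 1 := by rw [this]; group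
  obtain ⟨z', hz', k1, k2, k3⟩ := conj_into_Bo (j := 1) Nat.prime_five hr5 hr5' (hG s hs) h6 (hG f hf)
    (hcj _ _ _ hf2) (by
      calc _ = y⁻¹ * (f * s) * y := by group
        _ = _ := by rw [hc]; group) fun w hw h5 h => by
      have h' : ∀ r, E7.B r r = 2 → lin A (w r) % 13 = lin A r % 13 := fun r hr => by
        rw [← h9, ← h9]
        exact zpow_eq_iff (by norm_num) hζ (h r hr)
      rcases h11 with rfl | rfl
      · exact noStab _ [0, 0, 1, 0, 0, 0, 0] [0, 1, 0, 0, 0, 0, 0] [2, 2, 3, 4, 3, 2, 1]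
          (by decide +kernel) (by decide +kernel) w hw h5 h'
      · exact noStab _ [0, 0, 0, 0, 0, 0, 1] [0, 0, 0, 0, 1, 0, 0] [0, 1, 0, 0, 0, 0, 0]
          (by decide +kernel) (by decide +kernel) w hw h5 h'
  have e1 : ∀ g, z'⁻¹ * (y⁻¹ * g * y) * z' = (y * z')⁻¹ * g * (y * z') := fun g => by group
  rw [e1] at k1 k2 k3
  obtain ⟨π, hπ, hπ'⟩ := key _ ((E7.G F).mul_mem hy hz') k2 k3
  obtain ⟨u', hu', h', ⟨k4, χ', k5⟩, k6⟩ := id k1
  have k7 : ∀ r, E7.d ((y * z')⁻¹ * f * (y * z')) r = χ' r.1 := fun r => by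
    rw [k6, d_mul (U_le_Bo hu') (H_le_Bo ⟨k4, χ', k5⟩), d_U hu', one_mul, k5.d_eq]
  obtain ⟨b, hb1, hb2⟩ := k5.exists_lin hξ fun i => by
    rw [← sp_val, ← k7, ← d_pow k1, hcj _ _ _ hf2, d_one]
  have k8 := final (b := b) hπ (fun r => by
    have := hπ' k1 r
    rw [k7, k7, hb2, hb2, ← zpow_natCast, ← _root_.zpow_mul, mul_comm] at this
    exact zpow_eq_iff (by norm_num) hξ this) h11 hb1
  have := eq_one_of_U (j := 1) Nat.prime_five hr5 hr5' (mem_U_of k1 fun r => by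
    rw [k7, hb2, k8, zpow_zero]) (hcj _ _ _ hf2)
  refine Or.inr ?_
  calc f = (y * z') * ((y * z')⁻¹ * f * (y * z')) * (y * z')⁻¹ := by group
    _ = 1 := by rw [this]; group

theorem no65 (g : chevE7.group (ZMod 2)) (h : g ^ 65 = 1) : g ^ 5 = 1 ∨ g ^ 13 = 1 := by
  haveI : NeZero ((21125 : ℕ) : ZMod 2) := ⟨by decide⟩
  let F := CyclotomicField 21125 (ZMod 2)
  haveI : CharP F 2 := charP_of_injective_algebraMap (algebraMap (ZMod 2) F).injective 2
  haveI : FiniteDimensional (ZMod 2) F := IsCyclotomicExtension.finiteDimensional {21125} _ _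
  haveI : Finite F := Module.finite_of_finite (ZMod 2)
  have hζ := IsCyclotomicExtension.zeta_spec 21125 (ZMod 2) F
  let φ : GL (Fin 7 ⊕ Fin 126) (ZMod 2) →* GL (Fin 7 ⊕ Fin 126) F :=
    GeneralLinearGroup.map (algebraMap (ZMod 2) F)
  have hφ : Function.Injective φ := fun a b e => Units.ext
    (Matrix.map_injective (algebraMap (ZMod 2) F).injective (congrArg Units.val e))
  have h1 : ∀ k, GeneralLinearGroup.map (frobenius F 2) (φ k) = φ k := fun k =>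
    Units.ext (Matrix.ext fun i j => by
      change (algebraMap (ZMod 2) F _) ^ 2 = algebraMap (ZMod 2) F _
      rw [← map_pow, ZMod.pow_card])
  have h2 : ∀ k : chevE7.group (ZMod 2), φ k.1 ∈ E7.G F := fun k => map_RR _ (group_le k.2)
  let ψ : chevE7.group (ZMod 2) →* GL (Fin 7 ⊕ Fin 126) F := φ.comp (chevE7.group (ZMod 2)).subtype
  have hψ : Function.Injective ψ := hφ.comp Subtype.val_injective
  refine (main (hζ.pow (a := 169) (by norm_num) (by norm_num))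
    (hζ.pow (a := 125) (by norm_num) (by norm_num)) (s := ψ (g ^ 5)) (f := ψ (g ^ 13)) (h2 _) (h2 _)
    (h1 _) (h1 _) ?_ ?_ ?_).imp (map_eq_one_iff ψ hψ).1 (map_eq_one_iff ψ hψ).1
  · rw [← map_pow, ← pow_mul, h, map_one]
  · rw [← map_pow, ← pow_mul, h, map_one]
  · rw [← map_mul, ← map_mul, pow_mul_comm]

end Cfsg.Agent.H5.Ch
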